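import Cfsg.Agent.H885.O8R.Three
import Cfsg.Agent.H587.KB8.Geo

/-!
# S3691, `PΩ⁺₈(q)`, data of `Ω₇(q)`: final forms (helper885)

* `perfect_five`, `normal_five` : `V = P ⊥ U`, `dim U ≥ 5`;
* `perfect_fr`, `normal_fr` : `P` the orthogonal complement of a three-dimensional space with frame `x, y, w`;
* `odd_mem` : isometries of odd order are in `⁅O Q, O Q⁆`;
* `exists_AB` : two commuting perfect subgroups of `Om Q P`, `P` orthogonal to two hyperbolic planes.
-/

set_option autoImplicit false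
set_option linter.unusedSectionVars false

namespace Cfsg.Agent.H885.O8R

open Cfsg QuadraticMap Module
open Cfsg.Agent.LieClassical.OrthCore Cfsg.Agent.LieClassical.OrthTrans Cfsg.Agent.LieClassical.OrthForms
  Cfsg.Agent.LieClassical.OrthFinite Cfsg.Agent.LieClassical.OrthSimple
open Cfsg.Agent.H16.SN (glue glue_apply glue_j glue_ker glue_injective Fr3 pm jm)
open Cfsg.Agent.H466.O8R
open scoped MatrixGroups

section five

variable {F V : Type*} [Field F] [AddCommGroup V] [Module F V] {Q : QuadraticForm F V}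

/-- the embedding of a summand -/
theorem sub_of_compl {P U : Submodule F V} (hc : IsCompl U P) (ho : ∀ x ∈ P, ∀ y ∈ U, polar Q x y = 0) :
    Sub Q (Q.comp U.subtype) (U.projectionOnto P hc) U.subtype 1 where
  pj u := Submodule.projectionOnto_apply_left hc u
  ne := one_ne_zero
  form u := by rw [one_mul]; rfl
  perp r hr u := by
    rw [polar_comm]
    have h1 : r ∈ LinearMap.ker (U.projectionOnto P hc) := hr
    rw [Submodule.ker_projectionOnto] at h1
    exact ho r h1 u u.2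

theorem nondeg_restrict (hQ : Nondeg Q) {P U : Submodule F V} (hc : IsCompl U P)
    (ho : ∀ x ∈ P, ∀ y ∈ U, polar Q x y = 0) : Nondeg (Q.comp U.subtype) := by
  intro u hu
  have h1 : (u : V) = 0 := by
    apply hQ
    intro z
    obtain ⟨a, ha, b, hb, rfl⟩ := Submodule.mem_sup.1 (show z ∈ U ⊔ P by rw [hc.sup_eq_top]; trivial)
    rw [polar_add_right, polar_comm Q (u : V) b, ho b hb u u.2, add_zero]
    exact hu ⟨a, ha⟩
  exact Subtype.ext h1

variable [Finite F] (hQ : Nondeg Q) {P U : Submodule F V} (hc : IsCompl U P)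
  (ho : ∀ x ∈ P, ∀ y ∈ U, polar Q x y = 0) (hU : 5 ≤ finrank F U)

include hQ hc ho hU

/-- (F3) in dimension five -/
theorem perfect_five : ⁅Om Q P, Om Q P⁆ = Om Q P := by
  have h1 := (sub_of_compl hc ho).perfect hQ (good_of_finite (nondeg_restrict hQ hc ho) hU)
  rwa [Submodule.ker_projectionOnto] at h1

/-- (F4) in dimension five -/
theorem normal_five {N : Subgroup (V ≃ₗ[F] V)} (hN : N ≤ Om Q P) (hN' : ∀ g ∈ Om Q P, ∀ x ∈ N, g * x * g⁻¹ ∈ N)
    {x : V ≃ₗ[F] V} (hx : x ∈ N) (hs : ∀ c : F, ∃ u ∈ U, x u ≠ c • u) : N = Om Q P := by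
  have h1 := (sub_of_compl hc ho).normal hQ (good_of_finite (nondeg_restrict hQ hc ho) hU) (N := N)
  rw [Submodule.ker_projectionOnto] at h1
  refine h1 hN hN' hx fun c => ?_
  obtain ⟨u, hu, h⟩ := hs c
  exact ⟨⟨u, hu⟩, h⟩

end five

section three

variable {F V : Type*} [Field F] [Fintype F] [AddCommGroup V] [Module F V] {Q : QuadraticForm F V}
  (hF : 3 < Fintype.card F) (hQ : Nondeg Q) {x y w : V} (h : Fr3 Q x y w) {P : Submodule F V}
  (hP : ∀ r, r ∈ P ↔ polar Q x r = 0 ∧ polar Q y r = 0 ∧ polar Q w r = 0)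

include hF hQ h hP

/-- (F3) in dimension three -/
theorem perfect_fr : ⁅Om Q P, Om Q P⁆ = Om Q P := by
  have e : P = LinearMap.ker (pm Q x y w) := by
    ext r
    rw [hP, LinearMap.mem_ker, h.ker_iff]
  rw [e]
  exact perfect_three hF (sub_of_fr3 h) hQ

/-- (F4) in dimension three -/
theorem normal_fr {N : Subgroup (V ≃ₗ[F] V)} (hN : N ≤ Om Q P) (hN' : ∀ g ∈ Om Q P, ∀ x ∈ N, g * x * g⁻¹ ∈ N)
    {g : V ≃ₗ[F] V} (hg : g ∈ N) (hg2 : g ^ 2 ≠ 1) : N = Om Q P := by
  have e : P = LinearMap.ker (pm Q x y w) := by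
    ext r
    rw [hP, LinearMap.mem_ker, h.ker_iff]
  rw [e] at hN hN' ⊢
  exact normal_three hF (sub_of_fr3 h) hQ hN hN' hg hg2

end three

section odd

variable {F V : Type*} [Field F] [AddCommGroup V] [Module F V] {Q : QuadraticForm F V}

/-- (F8) -/
theorem odd_mem [FiniteDimensional F V] (hG : Good Q) {g : V ≃ₗ[F] V} (hg : g ∈ O Q) {k : ℕ} (hk : Odd k) (h : g ^ k = 1) :
    g ∈ ⁅O Q, O Q⁆ := by
  obtain ⟨m, rfl⟩ := hk
  have h1 : g = g ^ (m + 1) * g ^ (m + 1) := by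
    rw [← pow_add, show m + 1 + (m + 1) = 2 * m + 1 + 1 by ring, pow_succ, h, one_mul]
  rw [hG.commutator_eq_E, h1]
  exact Cfsg.Agent.H587.KB8.sq_mem_E hG (pow_mem hg _)

end odd

section AB

variable {F V : Type*} [Field F] [AddCommGroup V] [Module F V] {Q : QuadraticForm F V}

/-- two orthogonal hyperbolic planes -/
structure Two (Q : QuadraticForm F V) (u v : Fin 2 → V) : Prop where
  su : ∀ i, Q (u i) = 0
  sv : ∀ i, Q (v i) = 0
  uv : ∀ i, polar Q (u i) (v i) = 1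
  uv' : ∀ i j, i ≠ j → polar Q (u i) (v j) = 0
  uu : ∀ i j, i ≠ j → polar Q (u i) (u j) = 0
  vv : ∀ i j, i ≠ j → polar Q (v i) (v j) = 0

/-- the matrix of a vector -/
def pr (Q : QuadraticForm F V) (u v : Fin 2 → V) : V →ₗ[F] Matrix (Fin 2) (Fin 2) F where
  toFun x := !![polar Q (v 0) x, -polar Q (v 1) x; polar Q (u 1) x, polar Q (u 0) x]
  map_add' x y := by
    ext i j
    fin_cases i <;> fin_cases j <;> simp [polar_add_right, add_comm]
  map_smul' c x := by
    ext i j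
    fin_cases i <;> fin_cases j <;> simp [polar_smul_right]

/-- the vector of a matrix -/
def emb (u v : Fin 2 → V) : Matrix (Fin 2) (Fin 2) F →ₗ[F] V where
  toFun M := M 0 0 • u 0 + M 1 1 • v 0 + (-(M 0 1)) • u 1 + M 1 0 • v 1
  map_add' x y := by
    simp only [Matrix.add_apply, neg_add, add_smul]
    abel
  map_smul' c x := by
    simp only [Matrix.smul_apply, smul_eq_mul, smul_add, smul_smul, RingHom.id_apply, mul_neg]

theorem Two.pr_emb {u v : Fin 2 → V} (h : Two Q u v) (M : Matrix (Fin 2) (Fin 2) F) : pr Q u v (emb u v M) = M := by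
  have e0 : polar Q (u 0) (u 0) = 0 := polar_self_of_sing (h.su 0)
  have e1 : polar Q (u 1) (u 1) = 0 := polar_self_of_sing (h.su 1)
  have e2 : polar Q (v 0) (v 0) = 0 := polar_self_of_sing (h.sv 0)
  have e3 : polar Q (v 1) (v 1) = 0 := polar_self_of_sing (h.sv 1)
  have e4 : polar Q (v 0) (u 0) = 1 := by rw [polar_comm]; exact h.uv 0
  have e5 : polar Q (v 1) (u 1) = 1 := by rw [polar_comm]; exact h.uv 1
  have e6 : polar Q (v 0) (u 1) = 0 := by rw [polar_comm]; exact h.uv' 1 0 (by decide)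
  have e7 : polar Q (v 1) (u 0) = 0 := by rw [polar_comm]; exact h.uv' 0 1 (by decide)
  ext i j
  fin_cases i <;> fin_cases j <;>
    simp [pr, emb, polar_add_right, polar_smul_right, e0, e1, e2, e3, e4, e5, e6, e7, h.uv 0, h.uv 1,
      h.uv' 0 1 (by decide), h.uv' 1 0 (by decide), h.uu 0 1 (by decide), h.uu 1 0 (by decide), h.vv 0 1 (by decide),
      h.vv 1 0 (by decide)]

theorem Two.form {u v : Fin 2 → V} (h : Two Q u v) (M : Matrix (Fin 2) (Fin 2) F) : Q (emb u v M) = M.det := by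
  have e4 : polar Q (v 0) (u 1) = 0 := by rw [polar_comm]; exact h.uv' 1 0 (by decide)
  rw [Matrix.det_fin_two]
  simp only [emb, LinearMap.coe_mk, AddHom.coe_mk]
  rw [Q_add, Q_add, Q_add, QuadraticMap.map_smul, QuadraticMap.map_smul, QuadraticMap.map_smul, QuadraticMap.map_smul,
    h.su, h.su, h.sv, h.sv]
  simp only [polar_add_left, polar_add_right, polar_smul_left, polar_smul_right, smul_eq_mul, h.uv 0, h.uv 1,
      h.uv' 0 1 (by decide), h.uv' 1 0 (by decide), h.uu 0 1 (by decide), h.vv 0 1 (by decide), e4]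
  ring

theorem Two.perp {u v : Fin 2 → V} {r : V} (hr : pr Q u v r = 0) (M : Matrix (Fin 2) (Fin 2) F) :
    polar Q (emb u v M) r = 0 := by
  have h1 := congrFun (congrFun hr 0) 0
  have h2 := congrFun (congrFun hr 0) 1
  have h3 := congrFun (congrFun hr 1) 0
  have h4 := congrFun (congrFun hr 1) 1
  simp [pr] at h1 h2 h3 h4
  simp [emb, polar_add_left, polar_smul_left, h1, h2, h3, h4]

theorem Two.sub {u v : Fin 2 → V} (h : Two Q u v) : Sub Q (Q.comp (emb u v)) (pr Q u v) (emb u v) 1 where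
  pj := h.pr_emb
  ne := one_ne_zero
  form M := by rw [one_mul]; rfl
  perp r hr M := Two.perp hr M

theorem mem_ker_pr {u v : Fin 2 → V} {r : V} : r ∈ LinearMap.ker (pr Q u v) ↔
    ∀ i, polar Q (u i) r = 0 ∧ polar Q (v i) r = 0 := by
  rw [LinearMap.mem_ker]
  constructor
  · intro hr
    have h1 := congrFun (congrFun hr 0) 0
    have h2 := congrFun (congrFun hr 0) 1
    have h3 := congrFun (congrFun hr 1) 0
    have h4 := congrFun (congrFun hr 1) 1
    simp [pr] at h1 h2 h3 h4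
    intro i
    fin_cases i
    · exact ⟨h4, h1⟩
    · exact ⟨h3, h2⟩
  · intro h
    ext i j
    fin_cases i <;> fin_cases j <;> simp [pr, (h 0).1, (h 0).2, (h 1).1, (h 1).2]

/-- left multiplication -/
def lm : SL(2, F) →* (Matrix (Fin 2) (Fin 2) F ≃ₗ[F] Matrix (Fin 2) (Fin 2) F) where
  toFun g := LinearEquiv.ofLinearMap (LinearMap.mulLeft F (g : Matrix (Fin 2) (Fin 2) F))
    (LinearMap.mulLeft F ((g⁻¹ : SL(2, F)) : Matrix (Fin 2) (Fin 2) F))
    (by
      ext1 M
      simp only [LinearMap.comp_apply, LinearMap.mulLeft_apply, LinearMap.id_apply]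
      rw [← mul_assoc, ← Matrix.SpecialLinearGroup.coe_mul, mul_inv_cancel, Matrix.SpecialLinearGroup.coe_one, one_mul])
    (by
      ext1 M
      simp only [LinearMap.comp_apply, LinearMap.mulLeft_apply, LinearMap.id_apply]
      rw [← mul_assoc, ← Matrix.SpecialLinearGroup.coe_mul, inv_mul_cancel, Matrix.SpecialLinearGroup.coe_one, one_mul])
  map_one' := by
    apply LinearEquiv.ext
    intro M
    change ((1 : SL(2, F)) : Matrix (Fin 2) (Fin 2) F) * M = M
    rw [Matrix.SpecialLinearGroup.coe_one, one_mul]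
  map_mul' a b := by
    apply LinearEquiv.ext
    intro M
    change ((a * b : SL(2, F)) : Matrix (Fin 2) (Fin 2) F) * M = (a : Matrix (Fin 2) (Fin 2) F) * ((b : Matrix (Fin 2) (Fin 2) F) * M)
    rw [Matrix.SpecialLinearGroup.coe_mul, mul_assoc]

theorem lm_apply (g : SL(2, F)) (M : Matrix (Fin 2) (Fin 2) F) : lm g M = (g : Matrix (Fin 2) (Fin 2) F) * M := rfl

/-- right multiplication by the inverse -/
def rm : SL(2, F) →* (Matrix (Fin 2) (Fin 2) F ≃ₗ[F] Matrix (Fin 2) (Fin 2) F) where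
  toFun g := LinearEquiv.ofLinearMap (LinearMap.mulRight F ((g⁻¹ : SL(2, F)) : Matrix (Fin 2) (Fin 2) F))
    (LinearMap.mulRight F (g : Matrix (Fin 2) (Fin 2) F))
    (by
      ext1 M
      simp only [LinearMap.comp_apply, LinearMap.mulRight_apply, LinearMap.id_apply]
      rw [mul_assoc, ← Matrix.SpecialLinearGroup.coe_mul, mul_inv_cancel, Matrix.SpecialLinearGroup.coe_one, mul_one])
    (by
      ext1 M
      simp only [LinearMap.comp_apply, LinearMap.mulRight_apply, LinearMap.id_apply]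
      rw [mul_assoc, ← Matrix.SpecialLinearGroup.coe_mul, inv_mul_cancel, Matrix.SpecialLinearGroup.coe_one, mul_one])
  map_one' := by
    apply LinearEquiv.ext
    intro M
    change M * (((1 : SL(2, F))⁻¹ : SL(2, F)) : Matrix (Fin 2) (Fin 2) F) = M
    rw [inv_one, Matrix.SpecialLinearGroup.coe_one, mul_one]
  map_mul' a b := by
    apply LinearEquiv.ext
    intro M
    change M * (((a * b : SL(2, F))⁻¹ : SL(2, F)) : Matrix (Fin 2) (Fin 2) F) =
      (M * ((b⁻¹ : SL(2, F)) : Matrix (Fin 2) (Fin 2) F)) * ((a⁻¹ : SL(2, F)) : Matrix (Fin 2) (Fin 2) F)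
    rw [mul_inv_rev, Matrix.SpecialLinearGroup.coe_mul, mul_assoc]

theorem rm_apply (g : SL(2, F)) (M : Matrix (Fin 2) (Fin 2) F) :
    rm g M = M * ((g⁻¹ : SL(2, F)) : Matrix (Fin 2) (Fin 2) F) := rfl

theorem lm_mem {u v : Fin 2 → V} (h : Two Q u v) (g : SL(2, F)) : lm g ∈ O (Q.comp (emb u v)) := by
  intro M
  change Q (emb u v (lm g M)) = Q (emb u v M)
  rw [h.form, h.form, lm_apply, Matrix.det_mul, g.2, one_mul]

theorem rm_mem {u v : Fin 2 → V} (h : Two Q u v) (g : SL(2, F)) : rm g ∈ O (Q.comp (emb u v)) := by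
  intro M
  change Q (emb u v (rm g M)) = Q (emb u v M)
  rw [h.form, h.form, rm_apply, Matrix.det_mul, (g⁻¹).2, mul_one]

/-- **the two factors** -/
theorem exists_AB [Fintype F] (hF : 3 < Fintype.card F) (hQ : Nondeg Q) {u v : Fin 2 → V} (h : Two Q u v)
    {P U : Submodule F V} (hc : IsCompl U P) (ho : ∀ x ∈ P, ∀ y ∈ U, polar Q x y = 0) (hU : 5 ≤ finrank F U)
    (huU : ∀ i, u i ∈ U) (hvU : ∀ i, v i ∈ U) {e : V} (he : e ∈ U) (he0 : e ≠ 0)
    (heu : ∀ i, polar Q (u i) e = 0 ∧ polar Q (v i) e = 0) :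
    ∃ A B : Subgroup (V ≃ₗ[F] V), A ≤ Om Q P ∧ B ≤ Om Q P ∧ (∀ a ∈ A, ∀ b ∈ B, a * b = b * a) ∧
      ⁅A, A⁆ = A ∧ ⁅B, B⁆ = B ∧
      (∀ N : Subgroup (V ≃ₗ[F] V), N ≤ Om Q P → (∀ g ∈ Om Q P, ∀ x ∈ N, g * x * g⁻¹ ∈ N) → A ≤ N → N = Om Q P) ∧
      (∀ N : Subgroup (V ≃ₗ[F] V), N ≤ Om Q P → (∀ g ∈ Om Q P, ∀ x ∈ N, g * x * g⁻¹ ∈ N) → B ≤ N → N = Om Q P) := by
  have hs := h.sub
  set f := glue (pr Q u v) (emb u v) hs.pj with hf
  have hPk : ∀ r ∈ P, pr Q u v r = 0 := by
    intro r hr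
    rw [← LinearMap.mem_ker, mem_ker_pr]
    intro i
    exact ⟨by rw [polar_comm]; exact ho r hr _ (huU i), by rw [polar_comm]; exact ho r hr _ (hvU i)⟩
  have hek : pr Q u v e = 0 := by
    rw [← LinearMap.mem_ker, mem_ker_pr]
    exact heu
  have hembU : ∀ M : Matrix (Fin 2) (Fin 2) F, emb u v M ∈ U := by
    intro M
    exact add_mem (add_mem (add_mem (Submodule.smul_mem _ _ (huU 0)) (Submodule.smul_mem _ _ (hvU 0)))
      (Submodule.smul_mem _ _ (huU 1))) (Submodule.smul_mem _ _ (hvU 1))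
  have hPW : ∀ T : Matrix (Fin 2) (Fin 2) F ≃ₗ[F] Matrix (Fin 2) (Fin 2) F, T ∈ O (Q.comp (emb u v)) → f T ∈ PW Q P :=
    fun T hT => ⟨hs.glue_mem_O hT, fun r hr => glue_ker hs.pj T (hPk r hr)⟩
  -- a nontrivial element is not scalar on `U`
  have hns : ∀ T : Matrix (Fin 2) (Fin 2) F ≃ₗ[F] Matrix (Fin 2) (Fin 2) F, T 1 ≠ 1 →
      ∀ c : F, ∃ y ∈ U, f T y ≠ c • y := by
    intro T hT c
    by_cases hc1 : c = 1
    · refine ⟨emb u v 1, hembU 1, ?_⟩
      rw [hf, glue_j, hc1, one_smul]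
      intro h1
      apply hT
      have h2 := congrArg (pr Q u v) h1
      rwa [h.pr_emb, h.pr_emb] at h2
    · refine ⟨e, he, ?_⟩
      rw [hf, glue_ker hs.pj T hek]
      intro h1
      have h2 : (1 - c) • e = 0 := by rw [sub_smul, one_smul, sub_eq_zero]; exact h1
      rcases smul_eq_zero.1 h2 with h3 | h3
      · exact hc1 (sub_eq_zero.1 h3).symm
      · exact he0 h3
  -- a nontrivial element of `SL₂`
  obtain ⟨t, ht⟩ : ∃ t : SL(2, F), (t : Matrix (Fin 2) (Fin 2) F) ≠ 1 :=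
    ⟨⟨!![1, 1; 0, 1], by simp [Matrix.det_fin_two]⟩, fun h1 => by
      have := congrFun (congrFun h1 0) 1
      simp at this⟩
  have ht' : ((t⁻¹ : SL(2, F)) : Matrix (Fin 2) (Fin 2) F) ≠ 1 := by
    intro h1
    apply ht
    have h2 : t⁻¹ = 1 := Subtype.ext h1
    rw [inv_eq_one] at h2
    rw [h2, Matrix.SpecialLinearGroup.coe_one]
  have hA : (f.comp lm).range ≤ Om Q P := by
    rw [← range_perfect hF (f.comp lm)]
    refine Subgroup.commutator_mono ?_ ?_ <;>
    · rintro _ ⟨g, rfl⟩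
      exact hPW _ (lm_mem h g)
  have hB : (f.comp rm).range ≤ Om Q P := by
    rw [← range_perfect hF (f.comp rm)]
    refine Subgroup.commutator_mono ?_ ?_ <;>
    · rintro _ ⟨g, rfl⟩
      exact hPW _ (rm_mem h g)
  refine ⟨(f.comp lm).range, (f.comp rm).range, hA, hB, ?_, range_perfect hF _, range_perfect hF _, ?_, ?_⟩
  · rintro _ ⟨a, rfl⟩ _ ⟨b, rfl⟩
    rw [MonoidHom.comp_apply, MonoidHom.comp_apply, ← map_mul, ← map_mul]
    congr 1
    apply LinearEquiv.ext
    intro M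
    rw [LinearEquiv.mul_apply, LinearEquiv.mul_apply, lm_apply, lm_apply, rm_apply, rm_apply, mul_assoc]
  · intro N hN hN' hAN
    refine normal_five hQ hc.symm.symm ho hU hN hN' (x := f (lm t)) (hAN ⟨t, rfl⟩) (hns _ ?_)
    rw [lm_apply, mul_one]
    exact ht
  · intro N hN hN' hAN
    refine normal_five hQ hc.symm.symm ho hU hN hN' (x := f (rm t)) (hAN ⟨t, rfl⟩) (hns _ ?_)
    rw [rm_apply, one_mul]
    exact ht'

end AB

end Cfsg.Agent.H885.O8R
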