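import Cfsg.Agent.LieClassical.OrthSimple
import Cfsg.Agent.H16.SN.Glue
import Cfsg.Agent.H466.O8R.Om

/-!
# S3691, `PΩ⁺₈(q)`, data of `Ω₇(q)`: subspace groups (helper885)

* `Sub Q q p j κ` : `j : U → V` is a similitude of ratio `κ` from `q` to `Q`, `p` the orthogonal projection;
* `Sub.map_O`, `Sub.map_comm` : `PW Q (ker p)` and `Om Q (ker p)` are the images of `O q`, `⁅O q, O q⁆`;
* `Sub.perfect`, `Sub.normal` : if `dim U ≥ 5`.
-/

set_option autoImplicit false
set_option linter.unusedSectionVars false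

namespace Cfsg.Agent.H885.O8R

open Cfsg QuadraticMap Module
open Cfsg.Agent.LieClassical.OrthCore Cfsg.Agent.LieClassical.OrthTrans Cfsg.Agent.LieClassical.OrthForms
  Cfsg.Agent.LieClassical.OrthFinite Cfsg.Agent.LieClassical.OrthSimple
open Cfsg.Agent.H16.SN (glue glue_apply glue_j glue_ker glue_injective)
open Cfsg.Agent.H466.O8R

section

variable {F U V : Type*} [Field F] [AddCommGroup U] [Module F U] [AddCommGroup V] [Module F V]
  {Q : QuadraticForm F V} {q : QuadraticForm F U} {p : V →ₗ[F] U} {j : U →ₗ[F] V} {κ : F}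

/-- `j` embeds `(U, κ q)` in `(V, Q)`, `p` is the orthogonal projection -/
structure Sub (Q : QuadraticForm F V) (q : QuadraticForm F U) (p : V →ₗ[F] U) (j : U →ₗ[F] V) (κ : F) : Prop where
  pj : ∀ u, p (j u) = u
  ne : κ ≠ 0
  form : ∀ u, Q (j u) = κ * q u
  perp : ∀ r, p r = 0 → ∀ u, polar Q (j u) r = 0

theorem Sub.sub_ker (h : Sub Q q p j κ) (v : V) : p (v - j (p v)) = 0 := by
  rw [map_sub, h.pj, sub_self]

theorem Sub.eq_j (h : Sub Q q p j κ) (hQ : Nondeg Q) {v : V} (hv : ∀ r, p r = 0 → polar Q v r = 0) : j (p v) = v := by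
  have h0 := h.sub_ker v
  set r := v - j (p v) with hr
  have h1 : r = 0 := by
    apply hQ
    intro z
    have h2 : z = j (p z) + (z - j (p z)) := by abel
    have h3 := h.sub_ker z
    rw [h2, polar_add_right, polar_comm Q r, h.perp r h0, zero_add, hr, polar_sub_left, hv _ h3, h.perp _ h3, sub_zero]
  rw [hr, sub_eq_zero] at h1
  exact h1.symm

theorem Sub.glue_mem_O (h : Sub Q q p j κ) {A : U ≃ₗ[F] U} (hA : A ∈ O q) : glue p j h.pj A ∈ O Q := by
  rw [mem_O] at hA ⊢
  intro v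
  have h3 := h.sub_ker v
  have h4 : ∀ u, Q (j u + (v - j (p v))) = κ * q u + Q (v - j (p v)) := by
    intro u
    rw [Q_add, h.perp _ h3, h.form, add_zero]
  rw [glue_apply, h4, hA, ← h4, add_sub_cancel]

theorem Sub.map_O (h : Sub Q q p j κ) (hQ : Nondeg Q) : (O q).map (glue p j h.pj) = PW Q (LinearMap.ker p) := by
  apply le_antisymm
  · rintro _ ⟨A, hA, rfl⟩
    exact ⟨h.glue_mem_O hA, fun r hr => glue_ker h.pj A hr⟩
  · rintro a ⟨ha, ha'⟩
    have key : ∀ b : V ≃ₗ[F] V, b ∈ PW Q (LinearMap.ker p) → ∀ u, j (p (b (j u))) = b (j u) := by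
      rintro b ⟨hb, hb'⟩ u
      apply h.eq_j hQ
      intro r hr
      rw [← h.perp r hr u, ← polar_map hb (j u) r, hb' r hr]
    let A : U ≃ₗ[F] U := LinearEquiv.ofLinearMap (p ∘ₗ a.toLinearMap ∘ₗ j) (p ∘ₗ (a⁻¹ : V ≃ₗ[F] V).toLinearMap ∘ₗ j)
      (by
        apply LinearMap.ext
        intro t
        change p (a (j (p (a⁻¹ (j t))))) = t
        rw [key _ (inv_mem ⟨ha, ha'⟩)]
        have h1 : ∀ v, a (a⁻¹ v) = v := fun v => a.apply_symm_apply v
        rw [h1, h.pj])
      (by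
        apply LinearMap.ext
        intro t
        change p (a⁻¹ (j (p (a (j t))))) = t
        rw [key _ ⟨ha, ha'⟩]
        have h1 : ∀ v, a⁻¹ (a v) = v := fun v => a.symm_apply_apply v
        rw [h1, h.pj])
    have hA : ∀ u, A u = p (a (j u)) := fun _ => rfl
    refine ⟨A, ?_, ?_⟩
    · intro u
      have h1 := h.form (A u)
      rw [hA, key _ ⟨ha, ha'⟩, ha, h.form] at h1
      rw [hA]
      exact (mul_left_cancel₀ h.ne h1).symm
    · apply LinearEquiv.ext
      intro v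
      change j (A (p v)) + (v - j (p v)) = a v
      have h3 := h.sub_ker v
      rw [hA, key _ ⟨ha, ha'⟩]
      conv_lhs => rw [← ha' _ h3]
      rw [← map_add, add_sub_cancel]

theorem Sub.map_comm (h : Sub Q q p j κ) (hQ : Nondeg Q) :
    (⁅O q, O q⁆ : Subgroup (U ≃ₗ[F] U)).map (glue p j h.pj) = Om Q (LinearMap.ker p) := by
  rw [Subgroup.map_commutator, h.map_O hQ, Om]

/-- (F3) -/
theorem Sub.perfect (h : Sub Q q p j κ) (hQ : Nondeg Q) (hq : Good q) :
    ⁅Om Q (LinearMap.ker p), Om Q (LinearMap.ker p)⁆ = Om Q (LinearMap.ker p) := by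
  rw [← h.map_comm hQ, ← Subgroup.map_commutator, hq.commutator_eq_E, hq.E_perfect]

/-- (F4) a normal subgroup of `Om Q (ker p)` containing an element which is not scalar on `U` -/
theorem Sub.normal (h : Sub Q q p j κ) (hQ : Nondeg Q) (hq : Good q) {N : Subgroup (V ≃ₗ[F] V)}
    (hN : N ≤ Om Q (LinearMap.ker p)) (hN' : ∀ g ∈ Om Q (LinearMap.ker p), ∀ x ∈ N, g * x * g⁻¹ ∈ N)
    {x : V ≃ₗ[F] V} (hx : x ∈ N) (hs : ∀ c : F, ∃ u, x (j u) ≠ c • j u) : N = Om Q (LinearMap.ker p) := by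
  set f := glue p j h.pj with hf
  have hE : (E q).map f = Om Q (LinearMap.ker p) := by rw [← h.map_comm hQ, hq.commutator_eq_E]
  have h1 : (N.comap f) ≤ E q := by
    intro y hy
    have h2 : f y ∈ (E q).map f := by
      rw [hE]
      exact hN hy
    obtain ⟨z, hz, hzy⟩ := h2
    have h3 : z = y := glue_injective h.pj hzy
    rw [← h3]
    exact hz
  have h2 : ∀ g ∈ E q, ∀ y ∈ N.comap f, g * y * g⁻¹ ∈ N.comap f := by
    intro g hg y hy
    rw [Subgroup.mem_comap, map_mul, map_mul, map_inv]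
    refine hN' _ ?_ _ hy
    rw [← hE]
    exact ⟨g, hg, rfl⟩
  have h3 : (N.comap f).map f = N := by
    rw [Subgroup.map_comap_eq]
    apply inf_eq_right.2
    intro y hy
    have h4 : y ∈ (E q).map f := by
      rw [hE]
      exact hN hy
    obtain ⟨z, -, rfl⟩ := h4
    exact ⟨z, rfl⟩
  rcases good_normal_dichotomy hq h1 h2 with h4 | h4
  · exfalso
    rw [← h3] at hx
    obtain ⟨y, hy, rfl⟩ := hx
    obtain ⟨c, hc⟩ := h4 y hy
    obtain ⟨u, hu⟩ := hs c
    apply hu
    rw [hf, glue_j, hc, map_smul]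
  · rw [← h3, h4, hE]

end

end Cfsg.Agent.H885.O8R
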