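import Cfsg.Agent.H885.O8R.Sub
import Cfsg.Agent.H174.WT.SL

/-!
# S3691, `PΩ⁺₈(q)`, data of `Ω₇(q)`: three-dimensional subspaces, and the factors of four-dimensional ones (helper885)
-/

set_option autoImplicit false
set_option linter.unusedSectionVars false

namespace Cfsg.Agent.H885.O8R

open Cfsg QuadraticMap Module
open Cfsg.Agent.LieClassical.OrthCore Cfsg.Agent.LieClassical.OrthTrans Cfsg.Agent.LieClassical.OrthForms
  Cfsg.Agent.LieClassical.OrthFinite Cfsg.Agent.LieClassical.OrthSimple Cfsg.Agent.LieClassical.OrthThreeOmega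
open Cfsg.Agent.H16.SN (glue glue_apply glue_j glue_ker glue_injective Fr3 pm jm)
open Cfsg.Agent.H466.O8R
open scoped MatrixGroups

section SL

variable {F : Type*} [Field F] [Fintype F] {G : Type*} [Group G]

theorem range_perfect (hF : 3 < Fintype.card F) (f : SL(2, F) →* G) : ⁅f.range, f.range⁆ = f.range := by
  have hp := Cfsg.Agent.TwoFusion.SLTwoFacts.commutator_eq_top hF
  rw [_root_.commutator_def] at hp
  rw [MonoidHom.range_eq_map, ← Subgroup.map_commutator, hp]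

theorem center_sq {z : SL(2, F)} (hz : z ∈ Subgroup.center SL(2, F)) : z ^ 2 = 1 := by
  rw [Matrix.SpecialLinearGroup.mem_center_iff] at hz
  obtain ⟨r, hr, h⟩ := hz
  rw [Fintype.card_fin] at hr
  apply Subtype.ext
  change ((z ^ 2 : SL(2, F)) : Matrix (Fin 2) (Fin 2) F) = 1
  rw [Matrix.SpecialLinearGroup.coe_pow, ← h, ← map_pow, hr, map_one]

/-- a normal subgroup of the image of `SL₂` containing an element `x` with `x² ≠ 1` -/
theorem range_normal (hF : 3 < Fintype.card F) (f : SL(2, F) →* G) {N : Subgroup G} (hN : N ≤ f.range)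
    (hN' : ∀ g ∈ f.range, ∀ x ∈ N, g * x * g⁻¹ ∈ N) {x : G} (hx : x ∈ N) (hx2 : x ^ 2 ≠ 1) : N = f.range := by
  have hn : (N.comap f).Normal := by
    refine ⟨fun y hy g => ?_⟩
    rw [Subgroup.mem_comap, map_mul, map_mul, map_inv]
    exact hN' _ ⟨g, rfl⟩ _ hy
  rcases Cfsg.Agent.H174.WT.SL.sl_normal hF _ hn with h | h
  · apply le_antisymm hN
    rintro _ ⟨y, rfl⟩
    have : y ∈ N.comap f := by rw [h]; trivial
    exact this
  · exfalso
    obtain ⟨y, rfl⟩ := hN hx
    apply hx2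
    rw [← map_pow, center_sq (h hx), map_one]

end SL

section three

variable {F V : Type*} [Field F] [Fintype F] [AddCommGroup V] [Module F V]
  {Q : QuadraticForm F V} {p : V →ₗ[F] ((Unit ⊕ (Fin 1 ⊕ Fin 1)) → F)} {j : ((Unit ⊕ (Fin 1 ⊕ Fin 1)) → F) →ₗ[F] V} {κ : F}

theorem exists_ne (hF : 3 < Fintype.card F) : ∃ a : F, a ≠ 0 ∧ a ≠ 1 := by
  classical
  by_contra hcon
  push Not at hcon
  have : Fintype.card F ≤ 2 := by
    refine (Finset.card_le_card (s := Finset.univ) (t := ({0, 1} : Finset F)) ?_).trans Finset.card_le_two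
    intro a _
    by_cases h : a = 0
    · simp [h]
    · simp [hcon a h]
  omega

/-- `Om Q (ker p)` is an image of `SL₂` -/
theorem exists_hom (hF : 3 < Fintype.card F) (h : Sub Q (oddForm 1 F) p j κ) (hQ : Nondeg Q) :
    ∃ f : SL(2, F) →* (V ≃ₗ[F] V), f.range = Om Q (LinearMap.ker p) := by
  have hne := exists_ne hF
  obtain ⟨ψ, hψ⟩ : ∃ ψ : SL(2, F) →* Cfsg.Omega F ⇑(oddForm 1 F), Function.Surjective ψ := by
    rw [coe_oddForm]
    exact ⟨psiOmega hne, psiOmega_surjective hne⟩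
  refine ⟨(glue p j h.pj).comp (((isometryHom (oddForm 1 F)).comp (Cfsg.Omega F ⇑(oddForm 1 F)).subtype).comp ψ), ?_⟩
  rw [← h.map_comm hQ, ← map_Omega (oddForm 1 F), MonoidHom.range_comp, MonoidHom.range_comp,
    MonoidHom.range_eq_top.2 hψ, ← Subgroup.map_map, ← MonoidHom.range_eq_map, Subgroup.range_subtype]

/-- (F3) in dimension three -/
theorem perfect_three (hF : 3 < Fintype.card F) (h : Sub Q (oddForm 1 F) p j κ) (hQ : Nondeg Q) :
    ⁅Om Q (LinearMap.ker p), Om Q (LinearMap.ker p)⁆ = Om Q (LinearMap.ker p) := by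
  obtain ⟨f, hf⟩ := exists_hom hF h hQ
  rw [← hf]
  exact range_perfect hF f

/-- (F4) in dimension three -/
theorem normal_three (hF : 3 < Fintype.card F) (h : Sub Q (oddForm 1 F) p j κ) (hQ : Nondeg Q) {N : Subgroup (V ≃ₗ[F] V)}
    (hN : N ≤ Om Q (LinearMap.ker p)) (hN' : ∀ g ∈ Om Q (LinearMap.ker p), ∀ x ∈ N, g * x * g⁻¹ ∈ N)
    {x : V ≃ₗ[F] V} (hx : x ∈ N) (hx2 : x ^ 2 ≠ 1) : N = Om Q (LinearMap.ker p) := by
  obtain ⟨f, hf⟩ := exists_hom hF h hQ
  rw [← hf] at hN hN' ⊢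
  exact range_normal hF f hN hN' hx hx2

/-- helper16's frames -/
theorem sub_of_fr3 {x y w : V} (h : Fr3 Q x y w) : Sub Q (oddForm 1 F) (pm Q x y w) (jm Q x y w) (Q w) where
  pj := h.pj
  ne := h.ne
  form v := by rw [h.Q_jm, coe_oddForm]
  perp r hr u := h.perp hr u

end three

end Cfsg.Agent.H885.O8R
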